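import Mathlib
import Cfsg.Statements.S0238
import Cfsg.Agent.S0238
import Cfsg.Agent.Lib.Invol.Isolated
import Cfsg.Agent.Lib.ClassSizes.Basic

/-!
# The Brauer-Fowler counting argument
-/

set_option linter.unusedSectionVars false

namespace Cfsg.Agent.Lib.Invol

variable {G : Type*} [Group G]

/-- The "extended centralizer": elements that centralize or invert `x`. -/
def extCentralizer (x : G) : Subgroup G where
  carrier := {g | g * x * g⁻¹ = x ∨ g * x * g⁻¹ = x⁻¹}
  one_mem' := by simp
  mul_mem' := by
    intro a b ha hb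
    simp only [Set.mem_setOf_eq] at ha hb ⊢
    have e : a * b * x * (a * b)⁻¹ = a * (b * x * b⁻¹) * a⁻¹ := by group
    rw [e]
    rcases hb with hb | hb
    · rw [hb]; exact ha
    · rw [hb]
      have e2 : a * x⁻¹ * a⁻¹ = (a * x * a⁻¹)⁻¹ := by group
      rw [e2]
      rcases ha with ha | ha
      · right; rw [ha]
      · left; rw [ha, inv_inv]
  inv_mem' := by
    intro a ha
    simp only [Set.mem_setOf_eq] at ha ⊢
    rcases ha with ha | ha
    · left
      rw [inv_inv]
      calc a⁻¹ * x * a = a⁻¹ * (a * x * a⁻¹) * a := by rw [ha]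
        _ = x := by group
    · right
      rw [inv_inv]
      have h : a * x⁻¹ * a⁻¹ = x := by
        have : a * x⁻¹ * a⁻¹ = (a * x * a⁻¹)⁻¹ := by group
        rw [this, ha, inv_inv]
      calc a⁻¹ * x * a = a⁻¹ * (a * x⁻¹ * a⁻¹) * a := by rw [h]
        _ = x⁻¹ := by group

lemma mem_extCentralizer {x g : G} : g ∈ extCentralizer x ↔ g * x * g⁻¹ = x ∨ g * x * g⁻¹ = x⁻¹ :=
  Iff.rfl

lemma mem_centralizer_singleton_iff' {x g : G} :
    g ∈ Subgroup.centralizer ({x} : Set G) ↔ g * x * g⁻¹ = x := by
  rw [Subgroup.mem_centralizer_singleton_iff]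
  constructor
  · intro h; rw [h]; group
  · intro h
    calc g * x = (g * x * g⁻¹) * g := by group
      _ = x * g := by rw [h]

lemma centralizer_le_extCentralizer (x : G) :
    Subgroup.centralizer ({x} : Set G) ≤ extCentralizer x := by
  intro g hg
  exact Or.inl (mem_centralizer_singleton_iff'.1 hg)

lemma extCentralizer_eq_of_inv {x : G} (h : x⁻¹ = x) :
    extCentralizer x = Subgroup.centralizer ({x} : Set G) := by
  ext g
  rw [mem_extCentralizer, mem_centralizer_singleton_iff', h]
  simp

/-- `C(x)` has index at least two in the extended centralizer if `x` is real and not an involution. -/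
lemma two_mul_card_centralizer_le [Finite G] {x : G} (hr : IsConj x x⁻¹) (hne : x⁻¹ ≠ x) :
    2 * Nat.card (Subgroup.centralizer ({x} : Set G)) ≤ Nat.card (extCentralizer x) := by
  obtain ⟨a, ha⟩ := isConj_iff.1 hr
  have hle := centralizer_le_extCentralizer x
  have hlt : Subgroup.centralizer ({x} : Set G) ≠ extCentralizer x := by
    intro h
    have : a ∈ Subgroup.centralizer ({x} : Set G) := by
      rw [h]; exact Or.inr ha
    rw [mem_centralizer_singleton_iff', ha] at this
    exact hne this
  have h2 := Subgroup.card_mul_index ((Subgroup.centralizer ({x} : Set G)).subgroupOf (extCentralizer x))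
  have h3 : Nat.card ((Subgroup.centralizer ({x} : Set G)).subgroupOf (extCentralizer x)) =
      Nat.card (Subgroup.centralizer ({x} : Set G)) :=
    Nat.card_congr (Subgroup.subgroupOfEquivOfLe hle).toEquiv
  rw [h3] at h2
  set k := ((Subgroup.centralizer ({x} : Set G)).subgroupOf (extCentralizer x)).index with hk
  have hk0 : k ≠ 0 := Subgroup.index_ne_zero_of_finite
  have hk1 : k ≠ 1 := by
    intro h
    rw [hk, Subgroup.index_eq_one, Subgroup.subgroupOf_eq_top] at h
    exact hlt (le_antisymm hle h)
  rw [← h2, mul_comm]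
  have : 2 ≤ k := by omega
  exact Nat.mul_le_mul_left _ this

/-- Count of pairs of involutions with given product. -/
noncomputable def pairCount (G : Type*) [Group G] (x : G) : ℕ :=
  Nat.card {p : G × G // orderOf p.1 = 2 ∧ orderOf p.2 = 2 ∧ p.1 * p.2 = x}

/-- Number of involutions. -/
noncomputable def involCount (G : Type*) [Group G] : ℕ := Nat.card {t : G // orderOf t = 2}

section
variable [Finite G]

lemma pairCount_one : pairCount G (1 : G) = involCount G := by
  apply Nat.card_congr
  refine ⟨fun p => ⟨p.1.1, p.2.1⟩, fun t => ⟨(t.1, t.1), t.2, t.2, mul_self_of_order_two t.2⟩, ?_, ?_⟩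
  · rintro ⟨⟨u, v⟩, hu, hv, h⟩
    have : v = u := by
      have h1 : u * v = u * u := by rw [h, mul_self_of_order_two hu]
      exact mul_left_cancel h1
    subst this
    rfl
  · rintro ⟨t, ht⟩
    rfl

lemma sum_pairCount [Fintype G] [DecidableEq G] :
    ∑ x : G, pairCount G x = involCount G ^ 2 := by
  classical
  have h1 : ∀ x : G, pairCount G x =
      ((Finset.univ.filter (fun p : G × G => orderOf p.1 = 2 ∧ orderOf p.2 = 2)).filter
        (fun p => p.1 * p.2 = x)).card := by
    intro x
    rw [pairCount, Nat.card_eq_fintype_card, Fintype.card_subtype, Finset.filter_filter]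
    congr 1
    ext p
    simp only [Finset.mem_filter, Finset.mem_univ, true_and, and_assoc]
  simp_rw [h1]
  rw [← Finset.card_eq_sum_card_fiberwise (fun _ _ => Finset.mem_coe.2 (Finset.mem_univ _))]
  have h2 : Finset.univ.filter (fun p : G × G => orderOf p.1 = 2 ∧ orderOf p.2 = 2) =
      (Finset.univ.filter (fun t : G => orderOf t = 2)) ×ˢ
        (Finset.univ.filter (fun t : G => orderOf t = 2)) := by
    ext p
    simp
  rw [h2, Finset.card_product, involCount, Nat.card_eq_fintype_card, Fintype.card_subtype, pow_two]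

lemma exists_invol [Fintype G] (heven : Even (Nat.card G)) : ∃ t : G, orderOf t = 2 := by
  have : (2 : ℕ) ∣ Nat.card G := heven.two_dvd
  exact exists_prime_orderOf_dvd_card' 2 this

lemma involCount_pos (heven : Even (Nat.card G)) : 0 < involCount G := by
  haveI := Fintype.ofFinite G
  obtain ⟨t, ht⟩ := exists_invol heven
  haveI : Nonempty {t : G // orderOf t = 2} := ⟨⟨t, ht⟩⟩
  exact Nat.card_pos

/-- The class of an involution is contained in the set of involutions. -/
lemma card_class_le_involCount {t : G} (ht : orderOf t = 2) :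
    (Subgroup.centralizer ({t} : Set G)).index ≤ involCount G := by
  rw [← Cfsg.Agent.Lib.ClassSizes.card_isConj_eq_index]
  apply Nat.card_le_card_of_injective
    (fun c : {x : G // IsConj t x} => (⟨c.1, by
      obtain ⟨g, hg⟩ := isConj_iff.1 c.2
      rw [← hg, orderOf_conj']
      exact ht⟩ : {x : G // orderOf x = 2}))
  rintro ⟨a, ha⟩ ⟨b, hb⟩ h
  exact Subtype.ext (congrArg (fun u : {x : G // orderOf x = 2} => (u : G)) h)

end

/-- Extended centralizers of nontrivial products of involutions are proper if there is no subgroup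
of index two and the centre has odd order. -/
lemma extCentralizer_ne_top [Finite G] (hZ : Odd (Nat.card (Subgroup.center G)))
    (h2 : ∀ H : Subgroup G, H.index ≠ 2) {x : G} (hx : x ≠ 1) (hc : 0 < pairCount G x) :
    extCentralizer x ≠ ⊤ := by
  intro htop
  have hmem : ∀ g, g * x * g⁻¹ = x ∨ g * x * g⁻¹ = x⁻¹ := fun g => by
    have : g ∈ extCentralizer x := by rw [htop]; trivial
    exact this
  by_cases hinv : x⁻¹ = x
  · -- `x` is a central involution
    have hx2 : orderOf x = 2 := order_two_of_mul_self (by
      calc x * x = x * x⁻¹ := by rw [hinv]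
        _ = 1 := by group) hx
    have hcen : x ∈ Subgroup.center G := by
      rw [Subgroup.mem_center_iff]
      intro g
      rcases hmem g with h | h
      · calc g * x = (g * x * g⁻¹) * g := by group
          _ = x * g := by rw [h]
      · rw [hinv] at h
        calc g * x = (g * x * g⁻¹) * g := by group
          _ = x * g := by rw [h]
    have h3 : orderOf (⟨x, hcen⟩ : Subgroup.center G) = 2 := by
      rw [Subgroup.orderOf_mk]; exact hx2
    have h4 : 2 ∣ Nat.card (Subgroup.center G) := h3 ▸ orderOf_dvd_natCard _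
    obtain ⟨k, hk⟩ := hZ
    omega
  · -- `C(x)` has index two
    have hreal : IsConj x x⁻¹ := by
      by_contra hn
      have := (Cfsg.Agent.S0238.result x).2.1 hn
      have h5 : pairCount G x = 0 := this
      omega
    obtain ⟨a, ha⟩ := isConj_iff.1 hreal
    apply h2 (Subgroup.centralizer ({x} : Set G))
    rw [Subgroup.index_eq_two_iff]
    refine ⟨a, fun b => ?_⟩
    have e : b * a * x * (b * a)⁻¹ = b * (a * x * a⁻¹) * b⁻¹ := by group
    have e2 : b * x⁻¹ * b⁻¹ = (b * x * b⁻¹)⁻¹ := by group
    rw [mem_centralizer_singleton_iff', mem_centralizer_singleton_iff', e, ha, e2]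
    have hne : x ≠ x⁻¹ := fun h => hinv h.symm
    rcases hmem b with h | h
    · rw [h]
      exact Or.inr ⟨rfl, fun h' => hne h'.symm⟩
    · rw [h, inv_inv]
      exact Or.inl ⟨rfl, fun h' => hne h'.symm⟩

/-- The core inequality of Brauer-Fowler. -/
theorem exists_large_subgroup [Finite G] (heven : Even (Nat.card G))
    (hZ : Odd (Nat.card (Subgroup.center G))) (h2 : ∀ H : Subgroup G, H.index ≠ 2) :
    ∃ H : Subgroup G, H ≠ ⊤ ∧
      2 * involCount G ^ 2 + 2 * involCount G + Nat.card H ≤
        Nat.card H * (Nat.card G + involCount G) := by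
  classical
  haveI := Fintype.ofFinite G
  set n := involCount G with hn
  have hn0 : 0 < n := involCount_pos heven
  have hsum : ∑ x : G, pairCount G x = n ^ 2 := sum_pairCount
  have h1c : pairCount G (1 : G) = n := pairCount_one
  let X : Finset G := Finset.univ.filter (fun x => x ≠ 1 ∧ 0 < pairCount G x)
  have hsum' : ∑ x ∈ Finset.univ.erase (1 : G), pairCount G x + n = n ^ 2 := by
    rw [← hsum, ← Finset.add_sum_erase Finset.univ _ (Finset.mem_univ (1 : G)), h1c, add_comm]
  have hXne : X.Nonempty := by
    by_contra hemp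
    rw [Finset.not_nonempty_iff_eq_empty] at hemp
    have h0 : ∑ x ∈ Finset.univ.erase (1 : G), pairCount G x = 0 := by
      apply Finset.sum_eq_zero
      intro x hx
      by_contra hne
      have : x ∈ X := by
        simp only [X, Finset.mem_filter, Finset.mem_univ, true_and]
        exact ⟨(Finset.mem_erase.1 hx).1, Nat.pos_of_ne_zero hne⟩
      rw [hemp] at this
      simp at this
    rw [h0, zero_add] at hsum'
    have hn1 : n = 1 := by
      have : n * n = n * 1 := by rw [mul_one, ← pow_two, ← hsum']
      exact Nat.eq_of_mul_eq_mul_left hn0 this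
    obtain ⟨t, ht⟩ := exists_invol heven
    have huniq : ∀ s : G, orderOf s = 2 → s = t := by
      intro s hs
      haveI : Subsingleton {t : G // orderOf t = 2} :=
        (Nat.card_eq_one_iff_unique.1 (show Nat.card {t : G // orderOf t = 2} = 1 from hn1)).1
      exact congrArg Subtype.val (Subsingleton.elim (⟨s, hs⟩ : {t : G // orderOf t = 2}) ⟨t, ht⟩)
    have hcen : t ∈ Subgroup.center G := by
      rw [Subgroup.mem_center_iff]
      intro g
      have := huniq (g * t * g⁻¹) (by rw [orderOf_conj']; exact ht)
      calc g * t = (g * t * g⁻¹) * g := by group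
        _ = t * g := by rw [this]
    have h3 : orderOf (⟨t, hcen⟩ : Subgroup.center G) = 2 := by
      rw [Subgroup.orderOf_mk]; exact ht
    have h4 : 2 ∣ Nat.card (Subgroup.center G) := h3 ▸ orderOf_dvd_natCard _
    obtain ⟨k, hk⟩ := hZ
    omega
  obtain ⟨x₀, hx₀, hmax⟩ := Finset.exists_max_image X (fun x => Nat.card (extCentralizer x)) hXne
  simp only [X, Finset.mem_filter, Finset.mem_univ, true_and] at hx₀ hmax
  set m := Nat.card (extCentralizer x₀) with hm
  refine ⟨extCentralizer x₀, extCentralizer_ne_top hZ h2 hx₀.1 hx₀.2, ?_⟩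
  rw [← hm]
  have hm0 : 2 ≤ m := by
    have h3 : x₀ ∈ extCentralizer x₀ := Or.inl (by group)
    have h4 : (⟨x₀, h3⟩ : extCentralizer x₀) ≠ 1 := fun h => hx₀.1 (congrArg Subtype.val h)
    haveI : Nontrivial (extCentralizer x₀) := ⟨⟨_, _, h4⟩⟩
    exact Finite.one_lt_card
  -- pointwise bounds
  let I : Finset G := Finset.univ.filter (fun x => orderOf x = 2)
  let J : Finset G := Finset.univ.filter (fun x => x ≠ 1 ∧ orderOf x ≠ 2)
  have hI : I.card = n := by
    rw [hn, involCount, Nat.card_eq_fintype_card, Fintype.card_subtype]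
  have hIJ : Disjoint I J := by
    rw [Finset.disjoint_left]
    intro x hx hx'
    simp only [I, J, Finset.mem_filter, Finset.mem_univ, true_and] at hx hx'
    exact hx'.2 hx
  have hU : Finset.univ.erase (1 : G) = I ∪ J := by
    ext x
    simp only [I, J, Finset.mem_erase, Finset.mem_univ, and_true, Finset.mem_union,
      Finset.mem_filter, true_and]
    constructor
    · intro h
      by_cases h2' : orderOf x = 2
      · exact Or.inl h2'
      · exact Or.inr ⟨h, h2'⟩
    · rintro (h | h)
      · rintro rfl
        simp at h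
      · exact h.1
  have hJcard : J.card + n + 1 = Nat.card G := by
    have h3 : (Finset.univ.erase (1 : G)).card = Fintype.card G - 1 := by
      rw [Finset.card_erase_of_mem (Finset.mem_univ _), Finset.card_univ]
    rw [hU, Finset.card_union_of_disjoint hIJ, hI] at h3
    have h4 : 0 < Fintype.card G := Fintype.card_pos
    rw [Nat.card_eq_fintype_card]
    omega
  have hbI : ∀ x ∈ I, pairCount G x + 2 ≤ m := by
    intro x hx
    simp only [I, Finset.mem_filter, Finset.mem_univ, true_and] at hx
    by_cases hc : pairCount G x = 0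
    · rw [hc]; omega
    · have hx1 : x ≠ 1 := by rintro rfl; simp at hx
      have h3 := (Cfsg.Agent.S0238.result x).2.2 hx
      have h4 : Nat.card (Subgroup.centralizer ({x} : Set G)) = Nat.card (extCentralizer x) := by
        rw [extCentralizer_eq_of_inv (inv_eq_of_order_two hx)]
      have h5 := hmax x ⟨hx1, Nat.pos_of_ne_zero hc⟩
      rw [h4] at h3
      exact h3.trans h5
  have hbJ : ∀ x ∈ J, 2 * pairCount G x ≤ m := by
    intro x hx
    simp only [J, Finset.mem_filter, Finset.mem_univ, true_and] at hx
    by_cases hc : pairCount G x = 0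
    · rw [hc]; omega
    · have hreal : IsConj x x⁻¹ := by
        by_contra hnr
        exact hc ((Cfsg.Agent.S0238.result x).2.1 hnr)
      have hne : x⁻¹ ≠ x := by
        intro h
        apply hx.2
        apply order_two_of_mul_self _ hx.1
        calc x * x = x * x⁻¹ := by rw [h]
          _ = 1 := by group
      have h3 := two_mul_card_centralizer_le hreal hne
      have h4 : pairCount G x ≤ _ := (Cfsg.Agent.S0238.result x).1
      have h5 := hmax x ⟨hx.1, Nat.pos_of_ne_zero hc⟩
      omega
  have hsI : ∑ x ∈ I, (pairCount G x + 2) ≤ I.card * m := by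
    calc ∑ x ∈ I, (pairCount G x + 2) ≤ ∑ x ∈ I, m := Finset.sum_le_sum hbI
      _ = I.card * m := by simp
  have hsJ : ∑ x ∈ J, 2 * pairCount G x ≤ J.card * m := by
    calc ∑ x ∈ J, 2 * pairCount G x ≤ ∑ x ∈ J, m := Finset.sum_le_sum hbJ
      _ = J.card * m := by simp
  rw [Finset.sum_add_distrib, Finset.sum_const, hI, smul_eq_mul, mul_two] at hsI
  rw [← Finset.mul_sum] at hsJ
  have hsplit : ∑ x ∈ Finset.univ.erase (1 : G), pairCount G x =
      ∑ x ∈ I, pairCount G x + ∑ x ∈ J, pairCount G x := by
    rw [hU, Finset.sum_union hIJ]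
  rw [hsplit] at hsum'
  rw [← hJcard]
  nlinarith [hsI, hsJ, hsum']

end Cfsg.Agent.Lib.Invol
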