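import Mathlib
import Cfsg.Agent.Lib.Invol.BrauerFowler
import Cfsg.Agent.Lib.Invol.Sign

/-!
# Simple groups: faithful coset actions and the Brauer-Fowler consequences
-/

set_option linter.unusedSectionVars false

namespace Cfsg.Agent.Lib.Invol

variable {G : Type*} [Group G] [Finite G]

lemma toPermHom_injective_of_simple [IsSimpleGroup G] {H : Subgroup G} (hH : H ≠ ⊤) :
    Function.Injective (MulAction.toPermHom G (G ⧸ H)) := by
  rw [← MonoidHom.ker_eq_bot_iff, ← Subgroup.normalCore_eq_ker]
  rcases H.normalCore_normal.eq_bot_or_eq_top with h | h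
  · exact h
  · exfalso
    apply hH
    have := H.normalCore_le
    rw [h] at this
    exact top_le_iff.1 this

lemma card_le_factorial_index [IsSimpleGroup G] {H : Subgroup G} (hH : H ≠ ⊤) :
    Nat.card G ≤ H.index.factorial := by
  have := Nat.card_le_card_of_injective _ (toPermHom_injective_of_simple hH)
  rwa [Nat.card_perm, ← Subgroup.index_eq_card] at this

/-- In a simple group of order more than two there is no subgroup of index two. -/
lemma index_ne_two_of_simple [IsSimpleGroup G] (h2 : 2 < Nat.card G) (H : Subgroup G) :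
    H.index ≠ 2 := by
  intro hH
  haveI := Subgroup.normal_of_index_eq_two hH
  rcases (inferInstance : H.Normal).eq_bot_or_eq_top with h | h
  · subst h
    rw [Subgroup.index_bot] at hH
    omega
  · subst h
    simp at hH

/-- The centre of a simple group of order more than two has odd order. -/
lemma odd_card_center_of_simple [IsSimpleGroup G] (h2 : 2 < Nat.card G) :
    Odd (Nat.card (Subgroup.center G)) := by
  by_contra hne
  rw [Nat.not_odd_iff_even] at hne
  obtain ⟨z, hz⟩ := exists_prime_orderOf_dvd_card' (G := Subgroup.center G) 2 hne.two_dvd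
  have hz' : orderOf (z : G) = 2 := by rwa [Subgroup.orderOf_coe]
  have hnorm : (Subgroup.zpowers (z : G)).Normal := by
    constructor
    rintro _ ⟨k, rfl⟩ g
    refine ⟨k, ?_⟩
    have h0 : Commute g (z : G) := (Subgroup.mem_center_iff.1 z.2) g
    have hc : Commute g ((z : G) ^ k) := h0.zpow_right k
    simp only [hc.eq, mul_inv_cancel_right]
  rcases hnorm.eq_bot_or_eq_top with h | h
  · rw [Subgroup.zpowers_eq_bot] at h
    rw [h] at hz'
    simp at hz'
  · have h3 : Nat.card (Subgroup.zpowers (z : G)) = 2 := by rw [Nat.card_zpowers, hz']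
    rw [h, Subgroup.card_top] at h3
    omega

/-- The sign of a permutation representation of a simple group of order more than two is trivial. -/
lemma sign_eq_one_of_simple [IsSimpleGroup G] (h2 : 2 < Nat.card G) {α : Type*} [Fintype α]
    [DecidableEq α] (φ : G →* Equiv.Perm α) (g : G) : Equiv.Perm.sign (φ g) = 1 := by
  have hk : ((Equiv.Perm.sign).comp φ).ker = ⊤ := by
    rcases ((Equiv.Perm.sign).comp φ).normal_ker.eq_bot_or_eq_top with h | h
    · exfalso
      have hinj := (MonoidHom.ker_eq_bot_iff _).1 h
      have := Nat.card_le_card_of_injective _ hinj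
      simp at this
      omega
    · exact h
  have : g ∈ ((Equiv.Perm.sign).comp φ).ker := by rw [hk]; trivial
  exact this

/-- A simple group of order more than two embeds into the alternating group of any coset space. -/
lemma two_mul_card_dvd_factorial [IsSimpleGroup G] (h2 : 2 < Nat.card G) {H : Subgroup G}
    (hH : H ≠ ⊤) : 2 * Nat.card G ∣ H.index.factorial := by
  classical
  haveI := Fintype.ofFinite (G ⧸ H)
  have hinj := toPermHom_injective_of_simple hH
  have hle : (MulAction.toPermHom G (G ⧸ H)).range ≤ alternatingGroup (G ⧸ H) := by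
    rintro _ ⟨g, rfl⟩
    exact Equiv.Perm.mem_alternatingGroup.2 (sign_eq_one_of_simple h2 _ g)
  have hcard : Nat.card (MulAction.toPermHom G (G ⧸ H)).range = Nat.card G :=
    Nat.card_congr (MonoidHom.ofInjective hinj).toEquiv.symm
  have hd : Nat.card G ∣ Nat.card (alternatingGroup (G ⧸ H)) := by
    rw [← hcard]
    exact Subgroup.card_dvd_of_le hle
  haveI : Nontrivial (G ⧸ H) := by
    apply Finite.one_lt_card_iff_nontrivial.1
    rw [← Subgroup.index_eq_card]
    have h0 : H.index ≠ 0 := Subgroup.index_ne_zero_of_finite
    have h1 : H.index ≠ 1 := fun h => hH (Subgroup.index_eq_one.1 h)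
    omega
  have h3 := two_mul_card_alternatingGroup (α := G ⧸ H)
  rw [← Nat.card_eq_fintype_card, ← Nat.card_eq_fintype_card, Nat.card_perm,
    ← Subgroup.index_eq_card] at h3
  rw [← h3]
  exact Nat.mul_dvd_mul_left 2 hd

end Cfsg.Agent.Lib.Invol
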